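import Cfsg.Agent.H650.OZ.F4Inst
import Cfsg.Agent.H798.OZ.F4Ell
import Cfsg.Agent.H695.OneZero.DetMain
import Cfsg.Agent.H639.OZ.MidEnd
import Cfsg.Agent.H644.OZ.Nd
import Cfsg.Agent.H589.FF.Sum
import Cfsg.Agent.ClosedExc.Rows
import Cfsg.Agent.H730.OZ.Asm

/-!
# S4842, row `F₄(q)`, `q ≥ 3`: the inner part (helper320, BOX B of helper589)

* `char_A21` : `χ(t) = mm3 k a b c` for `t` elliptic in `L_{a, b, c}`, `{a, b}` of type `A₂`, `c` orthogonal to it,
  `k_K = dim V^{P_K}`;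
* `finrank_eq` : `k_i = k_j` if `M i j = 3`;
* `det_eq` : `k_0 + k_3 = dim V^B` from the determinant formula with `p^(24 a)`;
* `inner` : the hypotheses of helper589's `main` for an irreducible character of `F₄(q)` vanishing on exactly one class.
-/

set_option autoImplicit false
set_option linter.unusedSectionVars false

open Cfsg

namespace Cfsg.Agent.H320.OZ.F4In

open CoxeterSystem Cfsg.Agent.ChevalleyStructure.CoxeterGeom Cfsg.Agent.Tits.Roots Cfsg.Agent.Tits.Core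
  Cfsg.Agent.Tits.Exchange Cfsg.Agent.Nodes.Reps Cfsg.Agent.Nodes.BNOf Cfsg.Agent.Nodes.StabComb
  Cfsg.Agent.Nodes.Bruhat Cfsg.Agent.Nodes.OppDec Cfsg.Agent.Nodes.LeviDec Cfsg.Agent.H985.VZ Module
  Cfsg.Agent.H200.VZ Cfsg.Agent.H898.VZ Cfsg.Agent.H644.OZ Cfsg.Agent.H639.OZ

universe u v

/-! ### The word of the longest element -/

/-- the sixth power of a Coxeter element -/
def om : List (Fin 4) := [0, 1, 2, 3, 0, 1, 2, 3, 0, 1, 2, 3, 0, 1, 2, 3, 0, 1, 2, 3, 0, 1, 2, 3]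

section word

open Cfsg.Agent.H589.FF

variable {W : Type*} [Group W] (cs : CoxeterSystem CoxeterMatrix.F₄ W)

theorem isReduced_om : cs.IsReduced om := WF.isReduced_of cs (by decide +kernel)

theorem act_om : ∀ i, WF.vec (WF.act om (WF.ee i)) = - Pi.single i 1 := by decide +kernel

theorem rep_om (x : Fin 4 → ℤ) : rep cs WF.isCartan (cs.wordProd om) x = -x := by
  have h1 : rep cs WF.isCartan (cs.wordProd om) = (-1 : Module.End ℤ (Fin 4 → ℤ)) := by
    refine LinearMap.pi_ext' fun i => LinearMap.ext_ring ?_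
    change rep cs WF.isCartan (cs.wordProd om) (Pi.single i 1) = -(Pi.single i 1)
    rw [← WF.vec_ee, WF.rep_vec, act_om, WF.vec_ee]
  rw [h1]
  rfl

theorem om_eq [Finite W] : cs.wordProd om = w0 cs := by
  have hC : Cfsg.Agent.Tits.OppRes.Cox cs := inferInstance
  have h1 : cs.wordProd om * w0 cs = 1 := by
    by_contra hne
    obtain ⟨i, -, hi⟩ := hC.exists_descent (J := Set.univ) (by rw [WJ_univ]; exact Subgroup.mem_top _) hne
    have h2 : cs.length (cs.wordProd om * w0 cs) < cs.length (cs.wordProd om * w0 cs * cs.simple i) := by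
      rw [lt_iff' cs WF.isCartan, rep_mul_apply, rep_om]
      have h3 := rep_w0_nonpos (cs := cs) (isRoot_sr cs WF.isCartan i) (sr_nonneg i)
      exact neg_nonneg.2 h3
    omega
  rw [← w0_inv]
  exact eq_inv_of_mul_eq_one_left h1

end word

/-! ### Root group data -/

section gen

variable {I W : Type*} {Y : Type u} [Fintype I] [DecidableEq I] [Group W] [Group Y] {M : CoxeterMatrix I}
  {cs : CoxeterSystem M W} {A : I → I → ℤ} {h : IsCartan M A} {p : ℕ} {T : Subgroup Y} {n : I → Y}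
  {X : (I → ℤ) → Subgroup Y} {V : Type v} [AddCommGroup V] [Module ℂ V] {ρ : Representation ℂ Y V}
  (R : RGD cs h p T n X) [Finite W] [Finite Y]

omit [Finite W] [Finite Y] in
theorem quad_inj {E : Type*} [AddCommGroup E] [Module ℂ E] {S : Module.End ℂ E} {q : ℕ} (hq : 0 < q) (hS : Quad S q)
    {v : E} (hv : S v = 0) : v = 0 := by
  have h1 := congrArg (fun f : Module.End ℂ E => f v) hS
  simp only [Module.End.mul_apply, LinearMap.add_apply, LinearMap.sub_apply, LinearMap.smul_apply,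
    Module.End.one_apply, LinearMap.zero_apply, hv, zero_add, zero_sub] at h1
  have h2 : (q : ℂ) ≠ 0 := Nat.cast_ne_zero.2 hq.ne'
  rw [neg_eq_zero, smul_eq_zero] at h1
  exact h1.resolve_left h2

include R in
theorem finrank_le [FiniteDimensional ℂ V] {i j : I} (hm : M i j = 3) :
    finrank ℂ (fx ρ (PJ cs h T X {j})) ≤ finrank ℂ (fx ρ (PJ cs h T X {i})) := by
  rw [← finrank_Fq R i, ← finrank_Fq R j, ← qq_eq R hm]
  have hb := braid_three (ρ := ρ) R hm
  have qi := quad (ρ := ρ) R i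
  have qj := quad (ρ := ρ) R j
  have hq0 : 0 < qq X i := Nat.card_pos
  have hq0' : 0 < qq X j := Nat.card_pos
  have hmap : ∀ v ∈ Fq (TE cs h T n X ρ j) (qq X i), (TE cs h T n X ρ j * TE cs h T n X ρ i) v ∈
      Fq (TE cs h T n X ρ i) (qq X i) := by
    intro v hv
    rw [mem_Fq] at hv ⊢
    have h1 : TE cs h T n X ρ i (TE cs h T n X ρ j (TE cs h T n X ρ i v)) =
        TE cs h T n X ρ j (TE cs h T n X ρ i (TE cs h T n X ρ j v)) :=
      congrArg (fun f : Module.End ℂ (VB cs h T X ρ) => f v) hb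
    rw [Module.End.mul_apply, h1, hv, map_smul, map_smul]
  refine LinearMap.finrank_le_finrank_of_injective (f := (TE cs h T n X ρ j * TE cs h T n X ρ i).restrict hmap) ?_
  rw [injective_iff_map_eq_zero]
  intro v hv
  have h1 : TE cs h T n X ρ j (TE cs h T n X ρ i (v : VB cs h T X ρ)) = 0 := congrArg Subtype.val hv
  exact Subtype.ext (quad_inj hq0 qi (quad_inj hq0' qj h1))

include R in
/-- `k_i = k_j` -/
theorem finrank_eq [FiniteDimensional ℂ V] {i j : I} (hm : M i j = 3) :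
    finrank ℂ (fx ρ (PJ cs h T X {i})) = finrank ℂ (fx ρ (PJ cs h T X {j})) :=
  le_antisymm (finrank_le R (by rw [M.symmetric]; exact hm)) (finrank_le R hm)

end gen

section four

open Cfsg.Agent.H589.FF

variable {W : Type*} {Y : Type u} [Group W] [Group Y] {cs : CoxeterSystem CoxeterMatrix.F₄ W} {A : Fin 4 → Fin 4 → ℤ}
  {h : IsCartan CoxeterMatrix.F₄ A} {p : ℕ} {T : Subgroup Y} {n : Fin 4 → Y}
  {X : (Fin 4 → ℤ) → Subgroup Y} {V : Type v} [AddCommGroup V] [Module ℂ V] {ρ : Representation ℂ Y V}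
  (R : RGD cs h p T n X) [Finite W] [Finite Y] [FiniteDimensional ℂ V]

include R

/-- **the value at an elliptic element of type `A₂ × A₁`** -/
theorem char_A21 {a b c : Fin 4} (hab : CoxeterMatrix.F₄ a b = 3) (hac : CoxeterMatrix.F₄ a c = 2)
    (hbc : CoxeterMatrix.F₄ b c = 2) (hG : GG cs h T X = ⊤) (hρ : ρ.IsIrreducible)
    (h0 : fx ρ (RGD.B cs h T X) ≠ ⊥) {t : Y} (ht : Ell cs h T X {a, b, c} t) :
    ρ.character t = ((WF.mm3 (fun K => (finrank ℂ (fx ρ (PJ cs h T X K)) : ℤ)) a b c : ℤ) : ℂ) := by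
  have hne : ∀ {i j : Fin 4}, CoxeterMatrix.F₄ i j ≠ 1 → i ≠ j := by
    rintro i j hij rfl
    exact hij (CoxeterMatrix.F₄.diagonal i)
  have nab : a ≠ b := hne (by rw [hab]; decide)
  have nac : a ≠ c := hne (by rw [hac]; decide)
  have nbc : b ≠ c := hne (by rw [hbc]; decide)
  have hA21 : ∀ i j : Fin 3 × Fin 2, (nd cs ({a, b} ∪ {c})
      (((![∅, {a}, {a, b}] : Fin 3 → Set (Fin 4)) i.1) ∪ (![∅, {c}] : Fin 2 → Set (Fin 4)) i.2)
      (((![∅, {a}, {a, b}] : Fin 3 → Set (Fin 4)) j.1) ∪ (![∅, {c}] : Fin 2 → Set (Fin 4)) j.2) : ℤ) =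
        gA2 i.1 j.1 * gA1 i.2 j.2 := by
    intro i j
    have hs : ∀ (a : Fin 4) (k : Fin 2), (![∅, {a}] : Fin 2 → Set (Fin 4)) k ⊆ {a} := by
      intro a k
      fin_cases k <;> simp
    have hs' : ∀ (a b : Fin 4) (k : Fin 3), (![∅, {a}, {a, b}] : Fin 3 → Set (Fin 4)) k ⊆ {a, b} := by
      intro a b k
      fin_cases k
      · exact Set.empty_subset _
      · exact fun x hx => Or.inl hx
      · exact subset_rfl
    rw [nd_prod cs (J := {a, b}) (J' := {c}) ?_ (hs' _ _ _) (hs' _ _ _) (hs _ _) (hs _ _)]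
    · push_cast
      rw [nd_A2 cs h hab, nd_A1 cs h]
    · rintro x (rfl | rfl) _ rfl
      · exact hac
      · exact hbc
  have hu : ({a, b} ∪ {c} : Set (Fin 4)) = {a, b, c} := by
    rw [Set.insert_union, Set.singleton_union]
  have hu' : ({a} ∪ {c} : Set (Fin 4)) = {a, c} := Set.singleton_union
  have ht' : Ell cs h T X ({a, b} ∪ {c}) t := by rw [hu]; exact ht
  rw [char_of_cert R hG hρ h0 ht' (cert_A2.prod cert_A1)
    (fun x : Fin 3 × Fin 2 => ((![∅, {a}, {a, b}] : Fin 3 → Set (Fin 4)) x.1) ∪ (![∅, {c}] : Fin 2 → Set (Fin 4)) x.2)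
    ?_ ?_ ?_ ?_ hA21]
  · change ∑ i : Fin 3 × Fin 2, _ * ((dP cs h T X ρ _ : ℕ) : ℂ) =
      ((WF.mm3 (fun K => (dP cs h T X ρ K : ℤ)) a b c : ℤ) : ℂ)
    rw [WF.mm3]
    have e2 : (![∅, {a}, {a, b}] : Fin 3 → Set (Fin 4)) 2 = {a, b} := rfl
    have e3 : cA2 2 = 3 := rfl
    simp only [Fintype.sum_prod_type, Fin.sum_univ_three, Fin.sum_univ_two]
    simp only [e2, e3, Matrix.cons_val_zero, Matrix.cons_val_one, Set.empty_union, Set.union_empty, hu, hu']
    push_cast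
    norm_num [cA1, cA2]
    ring
  · rintro ⟨i, j⟩
    fin_cases i <;> fin_cases j <;> simp [Set.subset_def]
  · rfl
  · simp
  · rintro ⟨i, j⟩ hij hS
    have hne : b ∈ ({a, b} ∪ {c} : Set (Fin 4)) := by simp
    have hne' : c ∈ ({a, b} ∪ {c} : Set (Fin 4)) := by simp
    fin_cases i <;> fin_cases j
    · rw [← hS] at hne; simp at hne
    · rw [← hS] at hne; simp [nbc] at hne
    · rw [← hS] at hne'; simp [nac.symm] at hne'
    · rw [← hS] at hne; simp [nbc, nab.symm] at hne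
    · rw [← hS] at hne'; simp [nac.symm, nbc.symm] at hne'
    · exact hij rfl

/-- **the determinant formula** -/
theorem det_eq (hp : p.Prime) (hG : GG cs h T X = ⊤) (hρ : ρ.IsIrreducible) (h0 : fx ρ (RGD.B cs h T X) ≠ ⊥)
    {a : ℕ} (ha : 0 < a) (hq : ∀ i, qq X i = p ^ a)
    (hS : ∑ᶠ g ∈ Cfsg.Agent.H730.OZ.pSet p Y, ρ.character g = (p : ℂ) ^ (24 * a) * ρ.character 1) :
    finrank ℂ (fx ρ (PJ cs h T X {0})) + finrank ℂ (fx ρ (PJ cs h T X {3})) = finrank ℂ (fx ρ (RGD.B cs h T X)) := by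
  obtain ⟨-, h1⟩ := Cfsg.Agent.H695.OneZero.Det.det_formula_count R hp hG hρ h0 (m := 24 * a) (e := 1) (Or.inl rfl)
    (by rw [hS]; push_cast; ring) (a := fun _ => a) hq
  have h2 := h1 om (isReduced_om cs) (om_eq cs)
  have e1 : finrank ℂ (fx ρ (PJ cs h T X {1})) = finrank ℂ (fx ρ (PJ cs h T X {0})) :=
    (finrank_eq R (show CoxeterMatrix.F₄ 0 1 = 3 from rfl)).symm
  have e2 : finrank ℂ (fx ρ (PJ cs h T X {2})) = finrank ℂ (fx ρ (PJ cs h T X {3})) :=
    finrank_eq R (show CoxeterMatrix.F₄ 2 3 = 3 from rfl)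
  have hc : ∀ i : Fin 4, om.count i = 6 := by decide
  simp only [Fin.sum_univ_four, hc, e1, e2] at h2
  have h3 : (24 * a) * finrank ℂ (fx ρ (RGD.B cs h T X)) =
      (24 * a) * (finrank ℂ (fx ρ (PJ cs h T X {0})) + finrank ℂ (fx ρ (PJ cs h T X {3}))) := by
    rw [h2]; ring
  exact (Nat.eq_of_mul_eq_mul_left (by positivity) h3).symm

end four

/-! ### `F₄(q)` -/

section F4

open Cfsg.Agent.H589.FF Cfsg.Lie Cfsg.Lie.ChevalleyDatum Cfsg.Agent.ChevalleyStructure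
  Cfsg.Agent.ChevalleyStructure.Elts Cfsg.Agent.ChevalleyStructure.CoxeterGeomTypes
  Cfsg.Agent.ChevalleyStructure.NPerm Cfsg.Agent.Nodes Cfsg.Agent.Nodes.RGDChev Cfsg.Agent.KFacts.RgdChevCoord
  Cfsg.Agent.KFacts.RgdField Cfsg.Agent.GenExc.Chev Cfsg.Agent.H730.OZ

/-- one of two non-conjugate elements is not a zero -/
theorem exists_ne {G : Type u} [Group G] {χ : G → ℂ} (h1 : OneZero χ) {P : G → Prop}
    (h : ∃ s s', P s ∧ P s' ∧ ¬ IsConj s s') : ∃ s, P s ∧ χ s ≠ 0 := by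
  obtain ⟨s, s', hs, hs', hn⟩ := h
  by_contra hcon
  push Not at hcon
  obtain ⟨x, hx, hu⟩ := h1
  exact hn ((hu _ (hcon s hs)).symm.trans (hu _ (hcon s' hs')))

variable {F : Type} [Field F] [Fintype F] {W : Type*} [Group W] (cs : CoxeterSystem CoxeterMatrix.F₄ W)
  {V : Type v} [AddCommGroup V] [Module ℂ V] [FiniteDimensional ℂ V]
  {ρ : Representation ℂ ↥(chevF4.group F) V}

/-- **the inner part of the row `F₄(q)`, `q ≥ 3`** -/
theorem inner {p a : ℕ} (hp : p.Prime) (ha : 0 < a) (hF : Fintype.card F = p ^ a) (hq3 : 3 ≤ p ^ a)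
    (hρ : ρ.IsIrreducible) (h1 : OneZero ρ.character)
    (hS : ∑ᶠ u ∈ pSet p ↥(chevF4.group F), ρ.character u = (p : ℂ) ^ (24 * a) * ρ.character 1) :
    fx ρ (RGD.B cs isType_F4.isCartan (TT chevF4 F) (XX chevF4 4 F)) ≠ ⊥ ∧
    WF.mm3 (fun K => (finrank ℂ (fx ρ (PJ cs isType_F4.isCartan (TT chevF4 F) (XX chevF4 4 F) K)) : ℤ)) 0 1 3 ≠ 0 ∧
    WF.mm3 (fun K => (finrank ℂ (fx ρ (PJ cs isType_F4.isCartan (TT chevF4 F) (XX chevF4 4 F) K)) : ℤ)) 3 2 0 ≠ 0 ∧
    finrank ℂ (fx ρ (PJ cs isType_F4.isCartan (TT chevF4 F) (XX chevF4 4 F) {0})) +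
      finrank ℂ (fx ρ (PJ cs isType_F4.isCartan (TT chevF4 F) (XX chevF4 4 F) {3})) =
      finrank ℂ (fx ρ (RGD.B cs isType_F4.isCartan (TT chevF4 F) (XX chevF4 4 F))) := by
  have : Fact p.Prime := ⟨hp⟩
  have : CharP F p := by
    obtain ⟨r, hr⟩ := CharP.exists F
    obtain ⟨b, hrp, hb⟩ := FiniteField.card F r
    rw [hF] at hb
    have h2 : p = r := by
      have h3 : p ∣ r ^ (b : ℕ) := by rw [← hb]; exact dvd_pow_self p ha.ne'
      exact (Nat.prime_dvd_prime_iff_eq hp hrp).1 (hp.dvd_of_dvd_pow h3)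
    rwa [h2]
  have := finite_W isType_F4 cs
  have : Finite ↥(chevF4.group F) := inferInstance
  have R := rgd (K := F) isType_F4 cs p
  have hG : GG cs isType_F4.isCartan (TT chevF4 F) (XX chevF4 4 F) = ⊤ :=
    Cfsg.Agent.KFacts.RgdRigid.GG_eq_top (T := TT chevF4 F) (G1_eq_top isType_F4 cs)
  have hq2 : 2 ≤ p ^ a := by omega
  obtain ⟨t, ht, hχ⟩ := exists_ne h1 (Cfsg.Agent.H798.OZ.elts_013 cs hF hq3)
  obtain ⟨t', ht', hχ'⟩ := exists_ne h1 (Cfsg.Agent.H798.OZ.elts_023 cs hF hq3)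
  have hVB := Cfsg.Agent.H650.OZ.FF.VB_F4 p cs isType_F4 hρ ht hχ ht' hχ' fun hm => by
    have h7 : p ^ a = 4 ∨ 7 ≤ p ^ a := by
      rw [Nat.card_eq_fintype_card, hF] at hm
      omega
    obtain ⟨s, s', hs, hs', hn⟩ := Cfsg.Agent.H798.OZ.elts_BC cs hF h7
    by_contra hcon
    push Not at hcon
    obtain ⟨x, hx, hu⟩ := h1
    exact hn ((hu _ (hcon.2 s hs)).symm.trans (hu _ (hcon.1 s' hs')))
  have h0 : fx ρ (RGD.B cs isType_F4.isCartan (TT chevF4 F) (XX chevF4 4 F)) ≠ ⊥ := by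
    rw [← hVB.2.1]
    exact hVB.1
  have hqq : ∀ i, qq (XX chevF4 4 F) i = p ^ a := fun i => by
    rw [← hF]
    exact Cfsg.Agent.ClosedExc.Chev.card_XX isType_F4 F cs (isRoot_sr _ _ i)
  refine ⟨h0, fun hm => hχ ?_, fun hm => hχ' ?_, det_eq R hp hG hρ h0 ha hqq hS⟩
  · rw [char_A21 R (a := 0) (b := 1) (c := 3) rfl rfl rfl hG hρ h0 ht, hm, Int.cast_zero]
  · have e : ({0, 2, 3} : Set (Fin 4)) = {3, 2, 0} := by
      ext i
      simp only [Set.mem_insert_iff, Set.mem_singleton_iff]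
      tauto
    rw [e] at ht'
    rw [char_A21 R (a := 3) (b := 2) (c := 0) rfl rfl rfl hG hρ h0 ht', hm, Int.cast_zero]

end F4


end Cfsg.Agent.H320.OZ.F4In
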